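import Cfsg.Agent.Small.Count
import Cfsg.Agent.PF.Basic
import Cfsg.Agent.S3993

/-!
# A class function on the `r`-elements: level sets
-/

set_option autoImplicit false
set_option linter.unusedSectionVars false
set_option synthInstance.maxSize 2000

namespace CF.Dgr

open Subgroup CF.PF CF.Small MulAction
open scoped Classical

variable {G : Type*} [Group G] [Finite G]

/-- The orbit under conjugation by a subgroup. -/
noncomputable def ob (H : Subgroup G) (y : G) : Finset G := (els H).image fun h => h * y * h⁻¹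

theorem mem_ob {H : Subgroup G} {y z : G} : z ∈ ob H y ↔ ∃ h ∈ H, h * y * h⁻¹ = z := by simp [ob]

theorem card_ob (H : Subgroup G) (y : G) :
    (ob H y).card = (centralizer ({y} : Set G)).relIndex H := by
  letI : MulAction H G := MulAction.compHom G (MulAut.conj.comp H.subtype)
  have e : stabilizer H y = (centralizer ({y} : Set G)).subgroupOf H := by
    ext h
    rw [mem_stabilizer_iff, mem_subgroupOf, mem_centralizer_singleton_iff, ← mul_inv_eq_iff_eq_mul]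
    rfl
  rw [relIndex, ← e, index_stabilizer, ← Set.ncard_coe_finset]
  congr 1
  ext z
  simp only [Finset.mem_coe, mem_ob, mem_orbit_iff]
  exact ⟨fun ⟨h, k, e⟩ => ⟨⟨h, k⟩, e⟩, fun ⟨h, e⟩ => ⟨h, h.2, e⟩⟩

theorem dvd_card (H : Subgroup G) {d c : ℤ} : ∀ (n : ℕ) (S : Finset G), S.card = n →
    (∀ h ∈ H, ∀ y ∈ S, h * y * h⁻¹ ∈ S) →
    (∀ y ∈ S, d ∣ (centralizer ({y} : Set G)).relIndex H * c) → d ∣ S.card * c := by
  intro n
  induction n using Nat.strong_induction_on with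
  | _ n ih =>
  intro S hn h1 h2
  rcases S.eq_empty_or_nonempty with rfl | ⟨y, hy⟩
  · simp
  have s : ob H y ⊆ S := fun z hz => by
    obtain ⟨h, k, rfl⟩ := mem_ob.1 hz
    exact h1 h k y hy
  have p : 0 < (ob H y).card := Finset.card_pos.2 ⟨y, mem_ob.2 ⟨1, one_mem _, by simp⟩⟩
  have e := Finset.card_sdiff_add_card_eq_card s
  rw [← e, Nat.cast_add, add_mul, card_ob]
  refine dvd_add (ih _ (by omega) _ rfl (fun h k z hz => ?_) fun z hz => h2 z (Finset.mem_sdiff.1 hz).1) (h2 y hy)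
  rw [Finset.mem_sdiff] at hz ⊢
  refine ⟨h1 h k z hz.1, fun a => hz.2 ?_⟩
  obtain ⟨g, b, a⟩ := mem_ob.1 a
  exact mem_ob.2 ⟨h⁻¹ * g, mul_mem (inv_mem k) b, by
    rw [mul_inv_rev, inv_inv, show h⁻¹ * g * y * (g⁻¹ * h) = h⁻¹ * (g * y * g⁻¹) * h by group, a]; group⟩

variable (G) in
/-- The nontrivial solutions of `y ^ n = 1`. -/
noncomputable def RE (n : ℕ) : Finset G := (els ⊤).filter fun y => y ≠ 1 ∧ y ^ n = 1

theorem mem_RE {n : ℕ} {y : G} : y ∈ RE G n ↔ y ≠ 1 ∧ y ^ n = 1 := by simp [RE]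

theorem conj_RE {n : ℕ} {y : G} (g : G) (h : y ∈ RE G n) : g * y * g⁻¹ ∈ RE G n := by
  rw [mem_RE] at h ⊢
  exact ⟨fun e => h.1 (by simpa using e), by rw [conj_pow, h.2]; simp⟩

theorem dvd_RE {n : ℕ} (h : n ∣ Nat.card G) : n ∣ (RE G n).card + 1 := by
  convert Cfsg.Agent.S3993.result n h
  rw [← Finset.card_insert_of_notMem (a := 1) (by simp [mem_RE]), ← Nat.card_eq_finsetCard]
  exact Nat.card_congr (Equiv.subtypeEquivRight fun y => by by_cases e : y = 1 <;> simp [mem_RE, e])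

variable (G) in
/-- The data: `1 - u` is a character of degree `q (q - 1)`, and `-u` one of degree `m` on `r`-elements. -/
structure Dat (r q w m : ℕ) (u : G → ℤ) : Prop where
  card : Nat.card G = q ^ 3 * w
  cj : ∀ g y, u (g * y * g⁻¹) = u y
  one : 1 - u 1 = q * (q - 1)
  mu : ∀ D : Subgroup G, ∃ k : ℕ, ∑ y ∈ els D, (1 - u y) = Nat.card D * k
  md : ∀ y ∈ RE G (q ^ 3), (r : ℤ) ∣ 1 - u y
  d1 : ∀ y, (q : ℤ) ∣ (centralizer ({y} : Set G)).index * (1 - u y)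
  d2 : ∀ y ∈ RE G (q ^ 3), (w : ℤ) ∣ (centralizer ({y} : Set G)).index * u y
  s1 : ∑ y ∈ RE G (q ^ 3), u y = (q ^ 3 + 1) * m
  s2 : ∑ y ∈ RE G (q ^ 3), u y ^ 2 = 3 * q ^ 3 * m - m ^ 2
  inv : r = 2 → ∀ t, orderOf t = 2 →
    (q * (q - 1) * m + q * (q - 1) * u t ^ 2 : ℤ) = m * (1 - u t) ^ 2

/-- A level set. -/
noncomputable def lv (q : ℕ) (u : G → ℤ) (v : ℤ) : Finset G := (RE G (q ^ 3)).filter (u · = v)

theorem mem_lv {q : ℕ} {u : G → ℤ} {v : ℤ} {y : G} : y ∈ lv q u v ↔ y ∈ RE G (q ^ 3) ∧ u y = v :=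
  Finset.mem_filter

theorem sum_lv {q : ℕ} {u : G → ℤ} {L : Finset ℤ} (h : ∀ y ∈ RE G (q ^ 3), u y ∈ L) (f : ℤ → ℤ) :
    ∑ y ∈ RE G (q ^ 3), f (u y) = ∑ v ∈ L, (lv q u v).card * f v := by
  rw [← Finset.sum_fiberwise_of_maps_to h]
  refine Finset.sum_congr rfl fun v _ => ?_
  rw [Finset.sum_congr rfl (g := fun _ => f v) fun y k => by rw [(Finset.mem_filter.1 k).2]]
  simp [lv]

namespace Dat
variable {r q w m : ℕ} {u : G → ℤ} (h : Dat G r q w m u)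
include h

theorem conj_lv {v : ℤ} {y : G} (g : G) (k : y ∈ lv q u v) : g * y * g⁻¹ ∈ lv q u v :=
  mem_lv.2 ⟨conj_RE g (mem_lv.1 k).1, (h.cj g y).trans (mem_lv.1 k).2⟩

theorem dvd_lv (v : ℤ) : (q : ℤ) ∣ (lv q u v).card * (1 - v) ∧ (w : ℤ) ∣ (lv q u v).card * v :=
  ⟨dvd_card ⊤ _ _ rfl (fun g _ _ => h.conj_lv g) fun y k => by
    simpa [(mem_lv.1 k).2] using h.d1 y, dvd_card ⊤ _ _ rfl (fun g _ _ => h.conj_lv g) fun y k => by
    simpa [(mem_lv.1 k).2] using h.d2 y (mem_lv.1 k).1⟩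

theorem idx_le {v : ℤ} {y : G} (k : y ∈ lv q u v) : (centralizer ({y} : Set G)).index ≤ (lv q u v).card := by
  rw [← relIndex_top_right, ← card_ob]
  refine Finset.card_le_card fun z hz => ?_
  obtain ⟨g, -, rfl⟩ := mem_ob.1 hz
  exact h.conj_lv g k

theorem bound {K : ℤ} (hK : (3 * q ^ 3 * m - m ^ 2 : ℤ) = (q ^ 3 + 1) * m + w * K) (hw : 0 < w)
    (hr : 1 < r) {L : Finset ℤ} (h1 : 1 ∈ L) (hL : ∀ v ∈ Finset.Icc (1 - K) (1 + K), ∀ a ∈ Finset.Icc (-K) K,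
      (r : ℤ) ∣ 1 - v → a * (v - 1) ≤ K → 0 < a * v → v ∣ w * a → q * v ∣ w * a * (1 - v) → v ∈ L) :
    ∀ y ∈ RE G (q ^ 3), u y ∈ L := fun y k => by
  obtain ⟨a, ha⟩ := (h.dvd_lv (u y)).2
  obtain ⟨b, hb⟩ := (h.dvd_lv (u y)).1
  have p : (0 : ℤ) < (lv q u (u y)).card := by
    exact_mod_cast Finset.card_pos.2 ⟨y, mem_lv.2 ⟨k, rfl⟩⟩
  have e : ∑ z ∈ lv q u (u y), u z * (u z - 1) ≤ ∑ z ∈ RE G (q ^ 3), u z * (u z - 1) :=
    Finset.sum_le_sum_of_subset_of_nonneg (Finset.filter_subset _ _) fun z _ _ => by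
      rcases le_or_gt (u z) 0 with e | e <;> nlinarith
  rw [Finset.sum_congr rfl (g := fun _ => u y * (u y - 1)) fun z k => by rw [(mem_lv.1 k).2],
    Finset.sum_congr (s₁ := RE G _) rfl (g := fun z => u z ^ 2 - u z) fun z _ => by ring, Finset.sum_sub_distrib,
    h.s1, h.s2, hK, Finset.sum_const, nsmul_eq_mul, ← mul_assoc, ha, add_sub_cancel_left, mul_assoc] at e
  have w0 : (0 : ℤ) < w := by exact_mod_cast hw
  replace e := le_of_mul_le_mul_left e w0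
  by_cases e1 : u y = 1
  · rwa [e1]
  have k1 : u y ∣ w * a := ha ▸ dvd_mul_left _ _
  have k2 : q * u y ∣ w * a * (1 - u y) := ⟨b, by rw [← ha]; linear_combination u y * hb⟩
  have k3 := h.md y k
  generalize u y = v at *
  rcases lt_trichotomy v 0 with l | rfl | l
  · have : a < 0 := by nlinarith
    exact hL v (Finset.mem_Icc.2 ⟨by nlinarith, by nlinarith⟩) a (Finset.mem_Icc.2 ⟨by nlinarith, by nlinarith⟩)
      k3 e (by nlinarith) k1 k2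
  · have := Int.le_of_dvd one_pos k3
    omega
  · have : 0 < a := by nlinarith
    have : 1 < v := by omega
    exact hL v (Finset.mem_Icc.2 ⟨by nlinarith, by nlinarith⟩) a (Finset.mem_Icc.2 ⟨by nlinarith, by nlinarith⟩)
      k3 e (by nlinarith) k1 k2

theorem dvd_card_lv (v : ℤ) (n : ℕ) (x y z t : ℤ) (e : n * t ∣ q * x ∧ n * t ∣ w * y ∧
    x * (1 - v) + y * v + z * (n * t) = t ∧ t ≠ 0 := by decide +kernel) : n ∣ (lv q u v).card := by
  obtain ⟨a, ha⟩ := (h.dvd_lv v).2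
  obtain ⟨b, hb⟩ := (h.dvd_lv v).1
  obtain ⟨⟨c, hc⟩, ⟨d, hd⟩, e, k⟩ := e
  exact Int.natCast_dvd_natCast.1 (Int.dvd_of_mul_dvd_mul_right k ⟨c * b + d * a + z * (lv q u v).card, by
    linear_combination x * hb + y * ha + b * hc + a * hd - (lv q u v).card * e⟩)

theorem frob : q ^ 3 ∣ (RE G (q ^ 3)).card + 1 := dvd_RE (h.card ▸ dvd_mul_right _ _)

end Dat

/-- The conclusion of the numerical analysis. -/
structure Two (q : ℕ) (u : G → ℤ) : Prop where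
  val : ∀ y ∈ RE G (q ^ 3), u y = 1 ∨ u y = q + 1
  c1 : (RE G (q ^ 3)).card + 1 = q ^ 6

theorem val_of {q : ℕ} {u : G → ℤ} {L : Finset ℤ} (h : ∀ y ∈ RE G (q ^ 3), u y ∈ L)
    (k : ∀ v ∈ L, v = 1 ∨ v = q + 1 ∨ (lv q u v).card = 0) : ∀ y ∈ RE G (q ^ 3), u y = 1 ∨ u y = q + 1 :=
  fun y hy => (k _ (h y hy)).imp_right fun e => e.resolve_right
    (Finset.card_pos.2 ⟨y, mem_lv.2 ⟨hy, rfl⟩⟩).ne'

theorem ar7 {n a b c : ℕ} (e0 : (n : ℤ) = a + (b + c)) (e1 : (132096 : ℤ) = a + (b * 8 + -(c * 6)))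
    (e2 : (247680 : ℤ) = a + (b * 64 + c * 36)) (e3 : 343 ∣ n + 1) (e4 : 2064 ∣ b)
    (e5 : 2752 ∣ c) : c = 0 ∧ n + 1 = 117649 ∧ b = 2064 := by omega

theorem two7 {u : G → ℤ} (h : Dat G 7 7 16512 384 u) : Two 7 u ∧ (lv 7 u (7 + 1 : ℕ)).card = 2064 := by
  have L := h.bound (K := 7) (L := {1, 8, -6}) (by norm_num) (by norm_num) (by norm_num) (by simp)
    (by decide +kernel)
  obtain ⟨k1, k2, k3⟩ := ar7 (by simpa using sum_lv L fun _ => 1) (by simpa using h.s1.symm.trans (sum_lv L id))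
    (by simpa using h.s2.symm.trans (sum_lv L (· ^ 2))) h.frob (h.dvd_card_lv 8 2064 0 1 0 8)
    (h.dvd_card_lv (-6) 2752 0 917 1 2)
  exact ⟨⟨val_of L (by simp [-Finset.card_eq_zero, k1]), k2⟩, k3⟩

theorem ar9 {n z a b c d : ℕ} (e0 : (n : ℤ) = z + (a + (b + (c + d))))
    (e1 : (584000 : ℤ) = z + (a * 10 + (-(b * 8) + (c * 4 + -(d * 2)))))
    (e2 : (1109600 : ℤ) = z + (a * 100 + (b * 64 + (c * 16 + d * 4)))) (e3 : 729 ∣ n + 1)
    (e4 : 5840 ∣ a) (e5 : 7300 ∣ b) (e6 : 43800 ∣ c) (e7 : 87600 ∣ d) :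
    b = 0 ∧ c = 0 ∧ d = 0 ∧ n + 1 = 531441 ∧ a = 5840 := by
  obtain ⟨a, rfl⟩ := e4
  obtain ⟨b, rfl⟩ := e5
  obtain ⟨c, rfl⟩ := e6
  obtain ⟨d, rfl⟩ := e7
  have : a + b + c + d = 1 := by clear e0 e3; omega
  obtain (⟨rfl, rfl, rfl, rfl⟩ | ⟨rfl, rfl, rfl, rfl⟩ | ⟨rfl, rfl, rfl, rfl⟩ | ⟨rfl, rfl, rfl, rfl⟩) :
    (a = 1 ∧ b = 0 ∧ c = 0 ∧ d = 0) ∨ (a = 0 ∧ b = 1 ∧ c = 0 ∧ d = 0) ∨ (a = 0 ∧ b = 0 ∧ c = 1 ∧ d = 0) ∨
      (a = 0 ∧ b = 0 ∧ c = 0 ∧ d = 1) := by clear * - this; omega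
  all_goals omega

theorem two9 {u : G → ℤ} (h : Dat G 3 9 58400 800 u) : Two 9 u ∧ (lv 9 u (9 + 1 : ℕ)).card = 5840 := by
  have L := h.bound (K := 9) (L := {1, 10, -8, 4, -2}) (by norm_num) (by norm_num) (by norm_num) (by simp)
    (by decide +kernel)
  obtain ⟨k1, k2, k3, k4, k5⟩ := ar9 (by simpa using sum_lv L fun _ => 1)
    (by simpa using h.s1.symm.trans (sum_lv L id)) (by simpa using h.s2.symm.trans (sum_lv L (· ^ 2))) h.frob
    (h.dvd_card_lv 10 5840 0 1 0 10) (h.dvd_card_lv (-8) 7300 0 7299 1 8)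
    (h.dvd_card_lv 4 43800 58400 43803 0 12) (h.dvd_card_lv (-2) 87600 58400 87597 0 6)
  exact ⟨⟨val_of L (by simp [-Finset.card_eq_zero, k1, k2, k3]), k4⟩, k5⟩

theorem inv8 {u : G → ℤ} (h : Dat G 2 8 10773 567 u) {t : G} (ht : orderOf t = 2) : t ∈ lv 8 u (8 + 1 : ℕ) := by
  have e := h.inv rfl t ht
  refine mem_lv.2 ⟨mem_RE.2 ⟨by rintro rfl; simp at ht, orderOf_dvd_iff_pow_eq_one.1 (by norm_num [ht])⟩, ?_⟩
  generalize u t = v at e
  have : (v - 9) * (73 * v + 495) = 0 := by push_cast at e; linarith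
  push_cast
  rcases mul_eq_zero.1 this with e | e <;> omega

theorem ar8 {n z a b c d f g : ℕ} (e0 : (n : ℤ) = z + (a + (b + (c + (d + (f + g))))))
    (e1 : (290871 : ℤ) = z + (a * 9 + (b * 3 + (-c + (-(d * 3) + (-(f * 7) + g * 7))))))
    (e2 : (549423 : ℤ) = z + (a * 81 + (b * 9 + (c + (d * 9 + (f * 49 + g * 49)))))) (e3 : 512 ∣ n + 1)
    (e4 : 1197 ∣ a) (e5 : 14364 ∣ b) (e6 : 43092 ∣ c) (e7 : 7182 ∣ d) (e8 : 1539 ∣ f) (e9 : 6156 ∣ g)
    (e : 0 < a) : b = 0 ∧ c = 0 ∧ d = 0 ∧ f = 0 ∧ g = 0 ∧ n + 1 = 262144 := by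
  obtain ⟨a, rfl⟩ := e4
  obtain ⟨b, rfl⟩ := e5
  obtain ⟨c, rfl⟩ := e6
  obtain ⟨d, rfl⟩ := e7
  obtain ⟨f, rfl⟩ := e8
  obtain ⟨g, rfl⟩ := e9
  push_cast at e0 e1 e2
  have k1 : (a + b + c + d + f + 3 * g : ℤ) = 3 := by linarith
  replace e : 0 < a := by omega
  obtain rfl : g = 0 := by clear * - k1 e; omega
  have k2 : (n : ℤ) + 9576 * a + 28728 * b = 290871 + 86184 * c + 28728 * d + 12312 * f := by
    push_cast at *; linarith
  clear e0 e1 e2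
  have : a ≤ 3 := by clear * - k1; omega
  have : b ≤ 2 := by clear * - k1 e; omega
  have : c ≤ 2 := by clear * - k1 e; omega
  have : d ≤ 2 := by clear * - k1 e; omega
  have : f ≤ 2 := by clear * - k1 e; omega
  interval_cases a <;> interval_cases b <;> interval_cases c <;> interval_cases d <;> interval_cases f <;> omega

theorem two8 {u : G → ℤ} (h : Dat G 2 8 10773 567 u) : Two 8 u := by
  have L := h.bound (K := 24) (L := {1, 9, 3, -1, -3, -7, 7}) (by norm_num) (by norm_num) (by norm_num) (by simp)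
    (by decide +kernel)
  have := Fact.mk Nat.prime_two
  obtain ⟨t, ht⟩ := exists_prime_orderOf_dvd_card' (G := G) 2 (by norm_num [h.card])
  obtain ⟨k1, k2, k3, k4, k5, k6⟩ := ar8 (by simpa using sum_lv L fun _ => 1)
    (by simpa using h.s1.symm.trans (sum_lv L id)) (by simpa using h.s2.symm.trans (sum_lv L (· ^ 2))) h.frob
    (h.dvd_card_lv 9 1197 0 1 0 9) (h.dvd_card_lv 3 14364 10773 7184 0 6)
    (h.dvd_card_lv (-1) 43092 10773 21544 0 2) (h.dvd_card_lv (-3) 7182 (-10773) 14360 1 12)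
    (h.dvd_card_lv (-7) 1539 0 1319 6 1) (h.dvd_card_lv 7 6156 (-1539) 440 (-1) 2)
    (Finset.card_pos.2 ⟨t, inv8 h ht⟩)
  exact ⟨val_of L (by simp [-Finset.card_eq_zero, k1, k2, k3, k4, k5]), k6⟩

end CF.Dgr
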