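import Cfsg.Agent.Dgr.A

/-!
# The special elements in a Sylow subgroup
-/

set_option autoImplicit false
set_option linter.unusedSectionVars false

namespace CF.Dgr

open Subgroup CF.PF CF.Small MulAction
open scoped Classical

variable {G : Type*} [Group G] [Finite G]

/-- The special elements of a subgroup. -/
noncomputable def Z (q : ℕ) (u : G → ℤ) (D : Subgroup G) : Finset G := (lv q u (q + 1 : ℕ)).filter (· ∈ D)

theorem mem_Z {q : ℕ} {u : G → ℤ} {D : Subgroup G} {y : G} :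
    y ∈ Z q u D ↔ y ∈ lv q u (q + 1 : ℕ) ∧ y ∈ D := Finset.mem_filter

theorem Z_mono {q : ℕ} {u : G → ℤ} {D E : Subgroup G} (h : D ≤ E) : Z q u D ⊆ Z q u E :=
  fun _ k => mem_Z.2 ⟨(mem_Z.1 k).1, h (mem_Z.1 k).2⟩

/-- All hypotheses. -/
structure Geo (G : Type*) [Group G] [Finite G] (r k q w m : ℕ) (u : G → ℤ) : Prop
    extends Dat G r q w m u, Two q u where
  pw : q = r ^ (k + 1)
  nd : ¬ r ∣ w

namespace Geo
variable {r k q w m : ℕ} [hr : Fact r.Prime] {u : G → ℤ} (h : Geo G r k q w m u) {D E : Subgroup G} {x y : G}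
include h

theorem two_le : 2 ≤ q := h.pw ▸ hr.out.two_le.trans (Nat.le_self_pow k.succ_ne_zero r)

theorem card_sylow (P : Sylow r G) : Nat.card P = q ^ 3 := by
  rw [P.card_eq_multiplicity, h.card, h.pw, ← pow_mul, Nat.factorization_mul (pow_ne_zero _ hr.out.ne_zero)
    (by rintro rfl; exact h.nd (dvd_zero _)), hr.out.factorization_pow]
  simp [Nat.factorization_eq_zero_of_not_dvd h.nd]

theorem pow_eq (hD : IsPGroup r D) (hx : x ∈ D) : x ^ q ^ 3 = 1 := by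
  obtain ⟨P, k⟩ := hD.exists_le_sylow
  exact orderOf_dvd_iff_pow_eq_one.1 (h.card_sylow P ▸ orderOf_dvd_natCard _ (k hx))

theorem pg_zpowers (hx : x ^ q ^ 3 = 1) : IsPGroup r (zpowers x) := by
  rw [h.pw, ← pow_mul] at hx
  obtain ⟨j, -, e⟩ := (Nat.dvd_prime_pow hr.out).1 (orderOf_dvd_iff_pow_eq_one.2 hx)
  exact IsPGroup.of_card ((Nat.card_zpowers x).trans e)

theorem Z_eq (hD : IsPGroup r D) : ∃ j : ℕ, (q * (q - 1) : ℤ) = q * (Z q u D).card + Nat.card D * j := by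
  obtain ⟨j, e⟩ := h.mu D
  refine ⟨j, ?_⟩
  rw [← e, ← Finset.add_sum_erase _ _ (mem_els.2 D.one_mem), h.one,
    ← Finset.sum_subset (s₁ := Z q u D) (fun y k => by
      simpa using ⟨(mem_RE.1 (mem_lv.1 (mem_Z.1 k).1).1).1, (mem_Z.1 k).2⟩) fun y k k' => by
      simp only [Finset.mem_erase, mem_els] at k
      have a := mem_RE.2 ⟨k.1, h.pow_eq hD k.2⟩
      rw [(h.val y a).resolve_right fun e => k' (mem_Z.2 ⟨mem_lv.2 ⟨a, by simpa using e⟩, k.2⟩), sub_self],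
    Finset.sum_congr rfl (g := fun _ => -(q : ℤ)) fun y k => by simp [(mem_lv.1 (mem_Z.1 k).1).2]]
  simp [mul_comm]

theorem Z_lt (hD : IsPGroup r D) : (Z q u D).card < q := by
  obtain ⟨j, e⟩ := h.Z_eq hD
  have := h.two_le
  have : (0 : ℤ) ≤ Nat.card D * j := by positivity
  nlinarith

theorem Z_card (hD : IsPGroup r D) (h2 : q ^ 2 ∣ Nat.card D) : (Z q u D).card + 1 = q := by
  obtain ⟨j, e⟩ := h.Z_eq hD
  obtain ⟨c, hc⟩ := h2
  have := h.two_le
  have e' : (q - 1 : ℤ) = (Z q u D).card + q * (c * j : ℕ) :=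
    mul_left_cancel₀ (a := (q : ℤ)) (by positivity) (by rw [e, hc]; push_cast; ring)
  rcases Nat.eq_zero_or_pos (c * j) with l | l
  · rw [l] at e'; omega
  · nlinarith

theorem Z_of_le (hE : IsPGroup r E) (l : D ≤ E) (h2 : q ^ 2 ∣ Nat.card D) : Z q u D = Z q u E :=
  Finset.eq_of_subset_of_card_le (Z_mono l) (by
    have := h.Z_card (hE.to_le l) h2
    have := h.Z_lt hE
    omega)

theorem sq_dvd (hD : IsPGroup r D) (l : q ^ 3 ≤ Nat.card D * (q + 1)) : q ^ 2 ∣ Nat.card D := by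
  obtain ⟨j, e⟩ := IsPGroup.iff_card.1 hD
  rw [e] at l ⊢
  rw [h.pw, ← pow_mul]
  refine pow_dvd_pow _ (not_lt.1 fun a => ?_)
  have a1 : r ^ (j + 1) ≤ q ^ 2 := by rw [h.pw, ← pow_mul]; exact Nat.pow_le_pow_right hr.out.pos a
  have := h.two_le
  have := hr.out.two_le
  have a2 : r ^ j * 2 ≤ q ^ 2 := (Nat.mul_le_mul_left _ this).trans (pow_succ r j ▸ a1)
  have : q ^ 2 * (2 * q) ≤ q ^ 2 * (q + 1) := by nlinarith
  have := Nat.le_of_mul_le_mul_left this (by positivity)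
  omega

theorem conj_Z (hx : x ∈ D) (hy : y ∈ Z q u D) : x * y * x⁻¹ ∈ Z q u D :=
  mem_Z.2 ⟨h.conj_lv x (mem_Z.1 hy).1, mul_mem (mul_mem hx (mem_Z.1 hy).2) (inv_mem hx)⟩

theorem sq_dvd_inf (P : Sylow r G) (hy : y ∈ Z q u P) :
    q ^ 2 ∣ Nat.card (centralizer {y} ⊓ P : Subgroup G) := by
  refine h.sq_dvd (P.isPGroup'.to_le inf_le_right) ?_
  have e := ((centralizer {y}).subgroupOf (P : Subgroup G)).card_mul_index
  rw [h.card_sylow, ← inf_subgroupOf_right, Nat.card_congr (subgroupOfEquivOfLe inf_le_right).toEquiv,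
    inf_subgroupOf_right] at e
  have l : (ob P y).card ≤ (Z q u P).card := Finset.card_le_card fun z hz => by
    obtain ⟨g, a, rfl⟩ := mem_ob.1 hz
    exact h.conj_Z a hy
  have := h.Z_lt P.isPGroup'
  rw [card_ob, relIndex] at l
  exact e.ge.trans (Nat.mul_le_mul_left _ (by omega))

theorem comm (P : Sylow r G) (hx : x ∈ Z q u P) (hy : y ∈ Z q u P) : x * y = y * x := by
  rw [← h.Z_of_le P.isPGroup' inf_le_right (h.sq_dvd_inf P hy)] at hx
  exact mem_centralizer_singleton_iff.1 (mem_Z.1 hx).2.1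

theorem card_Z (P : Sylow r G) : (Z q u P).card + 1 = q :=
  h.Z_card P.isPGroup' (h.card_sylow P ▸ pow_dvd_pow _ (by norm_num))

theorem exists_cen (P : Sylow r G) : ∃ y ∈ Z q u P, (P : Subgroup G) ≤ centralizer {y} := by
  by_contra! n
  have e := dvd_card P (d := r) (c := 1) _ _ rfl (fun _ a _ => h.conj_Z a) fun y a => by
    have e := ((centralizer {y}).subgroupOf (P : Subgroup G)).index_dvd_card
    rw [h.card_sylow, h.pw, ← pow_mul] at e
    obtain ⟨j, e⟩ := (Nat.dvd_prime_pow hr.out).1 e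
    rw [relIndex, e.2, mul_one]
    rcases j with _ | j
    · exact absurd (subgroupOf_eq_top.1 (index_eq_one.1 e.2)) (n y a)
    · exact_mod_cast dvd_pow_self r j.succ_ne_zero
  rw [mul_one, Int.natCast_dvd_natCast] at e
  have e' : r ∣ (Z q u P).card + 1 := by rw [h.card_Z, h.pw]; exact dvd_pow_self r k.succ_ne_zero
  exact hr.out.one_lt.ne' (Nat.dvd_one.1 ((Nat.dvd_add_right e).1 e'))

variable (c : (lv q u (q + 1 : ℕ)).card * (q + 1) = w)
include c

theorem card_cent (hy : y ∈ lv q u (q + 1 : ℕ)) : Nat.card (centralizer ({y} : Set G)) = q ^ 3 * (q + 1) := by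
  have e := h.d2 y (mem_lv.1 hy).1
  rw [(mem_lv.1 hy).2, ← c, ← Nat.cast_mul, Int.natCast_dvd_natCast, Nat.mul_dvd_mul_iff_right q.succ_pos] at e
  have e1 := (h.idx_le hy).antisymm (Nat.le_of_dvd (Nat.pos_of_ne_zero index_ne_zero_of_finite) e)
  have e2 := (centralizer ({y} : Set G)).card_mul_index
  rw [h.card, ← c, e1, mul_comm _ (q + 1), ← mul_assoc] at e2
  exact Nat.eq_of_mul_eq_mul_right (Finset.card_pos.2 ⟨y, hy⟩) e2

theorem exists_syl (P : Sylow r G) (hy : y ∈ Z q u P) : ∃ Q : Subgroup (centralizer ({y} : Set G)),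
    IsPGroup r Q ∧ Q.index = q + 1 ∧ Z q u P = Z q u (Q.map (Subgroup.subtype _)) := by
  obtain ⟨Q, l⟩ := ((P.isPGroup'.to_le (inf_le_right : centralizer {y} ⊓ _ ≤ _)).comap_subtype
    (K := centralizer {y})).exists_le_sylow
  have e := h.card_cent c (mem_Z.1 hy).1
  have n : ¬ r ∣ q + 1 := fun a => hr.out.one_lt.ne' (Nat.dvd_one.1
    ((Nat.dvd_add_right (h.pw ▸ dvd_pow_self r k.succ_ne_zero)).1 a))
  have e1 : Nat.card Q = q ^ 3 := by
    rw [Q.card_eq_multiplicity, e, Nat.factorization_mul (by have := h.two_le; positivity) (by omega),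
      Finsupp.add_apply, Nat.factorization_eq_zero_of_not_dvd n, h.pw, ← pow_mul, hr.out.factorization_pow]
    simp
  have e2 := (Q : Subgroup (centralizer ({y} : Set G))).card_mul_index
  rw [e, e1] at e2
  refine ⟨Q, Q.isPGroup', Nat.eq_of_mul_eq_mul_left (by have := h.two_le; positivity) e2, ?_⟩
  rw [← h.Z_of_le P.isPGroup' inf_le_right (h.sq_dvd_inf P hy)]
  exact h.Z_of_le (Q.isPGroup'.map _) (fun z a => ⟨⟨z, a.1⟩, l a, rfl⟩) (h.sq_dvd_inf P hy)

theorem Z_eq_of (P R : Sylow r G) (h1 : y ∈ Z q u P) (h2 : y ∈ Z q u R) : Z q u P = Z q u R := by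
  obtain ⟨Q, a1, a2, a3⟩ := h.exists_syl c P h1
  obtain ⟨Q', b1, b2, b3⟩ := h.exists_syl c R h2
  have e : q ^ 2 ∣ Nat.card ((Q ⊓ Q').map (Subgroup.subtype _)) := by
    refine h.sq_dvd ((a1.to_le inf_le_left).map _) (Nat.le_of_mul_le_mul_right ?_ q.succ_pos)
    rw [card_map_of_injective (subtype_injective _), ← h.card_cent c (mem_Z.1 h1).1, ← (Q ⊓ Q').card_mul_index,
      mul_assoc]
    exact Nat.mul_le_mul_left _ (by simpa [a2, b2] using index_inf_le (H := Q) (K := Q'))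
  rw [a3, b3, ← h.Z_of_le (a1.map _) (map_mono inf_le_left) e, h.Z_of_le (b1.map _) (map_mono inf_le_right) e]

theorem Z_eq_of' (P R : Sylow r G) (h0 : x ≠ 1) (h1 : x ∈ P) (h2 : x ∈ R) : Z q u P = Z q u R := by
  have a := mem_RE.2 ⟨h0, h.pow_eq P.isPGroup' h1⟩
  rcases h.val x a with e | e
  swap
  · have b : x ∈ lv q u (q + 1 : ℕ) := mem_lv.2 ⟨a, by simpa using e⟩
    exact h.Z_eq_of c P R (mem_Z.2 ⟨b, h1⟩) (mem_Z.2 ⟨b, h2⟩)
  have b := h.d2 x a
  rw [e, mul_one, Int.natCast_dvd_natCast] at b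
  have b1 : Nat.card (centralizer ({x} : Set G)) * w ∣ r ^ ((k + 1) * 3) * w := by
    rw [pow_mul, ← h.pw, ← h.card, ← (centralizer ({x} : Set G)).card_mul_index]
    exact Nat.mul_dvd_mul_left _ b
  obtain ⟨j, -, b2⟩ := (Nat.dvd_prime_pow hr.out).1 (Nat.dvd_of_mul_dvd_mul_right
    (Nat.pos_of_ne_zero (by rintro rfl; exact h.nd (dvd_zero _))) b1)
  obtain ⟨T, l⟩ := (IsPGroup.of_card b2).exists_le_sylow
  have key : ∀ P : Sylow r G, x ∈ P → Z q u P = Z q u T := fun P a => by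
    obtain ⟨y, y1, y2⟩ := h.exists_cen P
    exact h.Z_eq_of c P T y1 (mem_Z.2 ⟨(mem_Z.1 y1).1,
      l (mem_centralizer_singleton_iff.2 (mem_centralizer_singleton_iff.1 (y2 a)).symm)⟩)
  rw [key P h1, key R h2]

theorem ti (c' : w = (q - 1) * (q ^ 3 + 1) * (q + 1)) (P R : Sylow r G) (h0 : P ≠ R) (x : G) (h1 : x ∈ P)
    (h2 : x ∈ R) : x = 1 := by
  by_contra h3
  let ρ : G → G → Prop := fun x y => ∃ T : Sylow r G, x ∈ T ∧ y ∈ T
  have s : ∀ (T : Sylow r G) y, y ∈ T → (els (T : Subgroup G)).erase 1 ⊆ (RE G (q ^ 3)).bipartiteBelow ρ y :=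
    fun T y a z b => by
      simp only [Finset.mem_erase, mem_els] at b
      exact (Finset.mem_bipartiteBelow ρ).2 ⟨mem_RE.2 ⟨b.1, h.pow_eq T.isPGroup' b.2⟩, T, b.2, a⟩
  have n : ∀ T : Sylow r G, ((els (T : Subgroup G)).erase 1).card = q ^ 3 - 1 := fun T => by
    rw [Finset.card_erase_of_mem (mem_els.2 (one_mem _)), card_els, h.card_sylow]
  have e := Finset.sum_card_bipartiteAbove_eq_sum_card_bipartiteBelow (s := RE G (q ^ 3))
    (t := lv q u (q + 1 : ℕ)) ρ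
  rw [Finset.sum_congr rfl (g := fun _ => q - 1) fun z a => by
    obtain ⟨T, l⟩ := (h.pg_zpowers (mem_RE.1 a).2).exists_le_sylow
    rw [← h.card_Z T, Nat.add_sub_cancel, h.card_Z T]
    congr 1
    ext y
    rw [Finset.mem_bipartiteAbove, mem_Z]
    refine and_congr_right fun b => ⟨fun ⟨T', b1, b2⟩ => ?_, fun b1 => ⟨T, l (mem_zpowers z), b1⟩⟩
    exact (mem_Z.1 (h.Z_eq_of' c T' T (mem_RE.1 a).1 b1 (l (mem_zpowers z)) ▸ mem_Z.2 ⟨b, b2⟩)).2,
    Finset.sum_const, smul_eq_mul] at e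
  have e1 : (RE G (q ^ 3)).card * (q - 1) = ∑ _y ∈ lv q u (q + 1 : ℕ), (q ^ 3 - 1) := by
    rw [Finset.sum_const, smul_eq_mul, Nat.eq_of_mul_eq_mul_right q.succ_pos (c.trans c'),
      Nat.eq_sub_of_add_eq h.c1, show q ^ 6 - 1 = (q ^ 3 + 1) * (q ^ 3 - 1) by
        rw [← Nat.sq_sub_sq, ← pow_mul, one_pow]]
    ring
  have e2 := (Finset.sum_eq_sum_iff_of_le fun y a => by
    obtain ⟨T, l⟩ := (h.pg_zpowers (mem_RE.1 (mem_lv.1 a).1).2).exists_le_sylow
    exact (n T).ge.trans (Finset.card_le_card (s T y (l (mem_zpowers y))))).1 (e1.symm.trans e)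
  obtain ⟨y, y1, -⟩ := h.exists_cen P
  have y2 := mem_Z.1 (h.Z_eq_of' c P R h3 h1 h2 ▸ y1)
  have key : ∀ T : Sylow r G, y ∈ T → (els (T : Subgroup G)).erase 1 = (RE G (q ^ 3)).bipartiteBelow ρ y :=
    fun T a => Finset.eq_of_subset_of_card_le (s T y a) ((e2 y y2.1).symm.trans (n T).symm).le
  have e3 := (key P (mem_Z.1 y1).2).trans (key R y2.2).symm
  refine h0 (Sylow.ext (Subgroup.ext fun z => ?_))
  by_cases a : z = 1
  · simp [a]
  · simpa [a] using Finset.ext_iff.1 e3 z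

theorem card_syl (c' : w = (q - 1) * (q ^ 3 + 1) * (q + 1)) : Nat.card (Sylow r G) = q ^ 3 + 1 := by
  obtain ⟨P⟩ : Nonempty (Sylow r G) := inferInstance
  have e := card_pElements_of_TI (h.ti c c') P
  rw [h.card_sylow, Nat.card_congr (Equiv.subtypeEquivRight (q := (· ∈ RE G (q ^ 3))) fun x => by
    rw [mem_RE]
    refine and_congr_right fun _ => ⟨fun ⟨T, a⟩ => h.pow_eq T.isPGroup' a, fun a => ?_⟩
    obtain ⟨T, l⟩ := (h.pg_zpowers a).exists_le_sylow
    exact ⟨T, l (mem_zpowers x)⟩), Nat.card_eq_finsetCard, Nat.eq_sub_of_add_eq h.c1,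
    show q ^ 6 - 1 = (q ^ 3 + 1) * (q ^ 3 - 1) by rw [← Nat.sq_sub_sq, ← pow_mul, one_pow]] at e
  exact (Nat.eq_of_mul_eq_mul_right (Nat.sub_pos_of_lt (Nat.one_lt_pow three_ne_zero h.two_le)) e).symm

end Geo

end CF.Dgr
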