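import Cfsg.Agent.Small.En2

/-!
# The sieve for divisors of the orders of small unitary groups: computations
-/

set_option autoImplicit false
set_option maxRecDepth 100000

namespace CF.Dgr

open CF.Small CF.Small.Sv CF.Small.En

/-- All solutions for all divisors pass the test. -/
def chk (L PR : List ℕ) (p R : ℕ) (k : ℕ → Sol → Bool) : Bool :=
  (divs L).all fun d => !solve (p * d) R p fun s => !k (p * d) s && bts PR (p * d) p s

/-- The expected solution. -/
def tg (N : ℕ) (a b : ℤ) (M : ℕ) (s : Sol) : Bool := M == N && s.e == 3 && s.c == 1 && s.L.isPerm [a, b]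

/-- Degrees in the principal `7`-block. -/
def ok7 (M d : ℕ) : Bool :=
  [1, 6, 3, 4].contains (d % 7) || (d % 7 == 2 && M % (d - 1) == 0) || (d % 7 == 5 && M % (d + 1) == 0)

/-- The test for the remaining parameters. -/
def t9 (c : ℕ) : Bool :=
  addB (172368 * c) ((divs [512, 81, 7, 19]).filter (172368 * c % · == 0)) [⟨19, 9, c⟩]
    (cmpB (172368 * c) ((divs [512, 81, 7, 19]).filter (172368 * c % · == 0)) 0
      (fltK (172368 * c) ((divs [512, 81, 7, 19]).filter (172368 * c % · == 0)) 0
        (fltT (172368 * c) ((divs [512, 81, 7, 19]).filter (172368 * c % · == 0)) fun _ _ _ => false)))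
    [] [] [(1, [])]

theorem c7 : chk [128, 3, 343] [2, 3, 7] 43 2380 (tg 5663616 (-343) (-42)) = true := by decide +kernel

theorem c9 : chk [32, 729, 25] [2, 3, 5] 73 6525 (tg 42573600 (-729) (-72)) = true := by decide +kernel

theorem c8 : chk [512, 81, 7] [2, 3, 7] 19 2349 (fun M s => tg 5515776 (-512) (-56) M s ||
    !bt M 19 7 (ok7 M) s || (s.e == 9 && s.ν == 1008)) = true := by decide +kernel

theorem c25 : chk [8, 3, 25] [2, 3, 5] 13 89 (fun _ s => s.e == 2 && s.c == 1) = true := by decide +kernel

theorem c81 : chk [16, 81, 5] [2, 3, 5] 41 516 (fun _ s => s.e == 2 && s.c == 1) = true := by decide +kernel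

theorem c19 : (divs [32]).all t9 = true := by decide +kernel

end CF.Dgr
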